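import Mathlib
import Cfsg.Agent.SymNil.Basic
import Cfsg.Agent.Core.SylowOf
import Cfsg.Agent.Core.Coprime2

/-! Largest nilpotent subgroups of symmetric groups: conjugacy and existence. -/

set_option autoImplicit false

namespace Cfsg.Agent.SymNil

open Cfsg Cfsg.Agent.Core Subgroup Equiv Equiv.Perm
open scoped Pointwise

variable {Ω : Type*} [Fintype Ω] [DecidableEq Ω]

theorem eq_sup_of_three {N : Subgroup (Perm Ω)} {c : Perm Ω} (hc : c ∈ N) (h1 : c.IsThreeCycle)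
    (h3 : (Fx c.supportᶜ).relIndex N = 3) : N = (N ⊓ Fx c.supportᶜ) ⊔ zpowers c := by
  refine ((eq_or_eq_of_relIndex_prime (H := N ⊓ Fx c.supportᶜ) (K := N)
    (by rw [inf_relIndex_left, h3]; exact Nat.prime_three) le_sup_left
    (sup_le inf_le_left (zpowers_le.2 hc))).resolve_left fun e => ?_).symm
  have := (e.le (mem_sup_right (mem_zpowers c))).2
  obtain ⟨a, ha⟩ := Finset.card_pos.1 (h1.card_support ▸ three_pos)
  exact mem_support.1 ha (mem_Fx_compl.1 this a ha)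

theorem conj_of_three {Γ N₁ N₂ : Subgroup (Perm Ω)} [Γ.Normal] (n₁ : N₁ ≤ Γ) (n₂ : N₂ ≤ Γ)
    {c₁ c₂ x : Perm Ω} (h₁ : c₁ ∈ N₁) (h₂ : c₂ ∈ N₂) (t₁ : c₁.IsThreeCycle) (t₂ : c₂.IsThreeCycle)
    (p₁ : IsPGroup 2 (N₁ ⊓ Fx c₁.supportᶜ : Subgroup _))
    (p₂ : IsPGroup 2 (N₂ ⊓ Fx c₂.supportᶜ : Subgroup _))
    (i₁ : (Fx c₁.supportᶜ).relIndex N₁ = 3) (i₂ : (Fx c₂.supportᶜ).relIndex N₂ = 3)
    (hx : x ∈ Γ) (e : x * c₁ * x⁻¹ = c₂) (hc : Nat.card N₁ = Nat.card N₂)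
    (hmax : ∀ Q : Subgroup (Perm Ω), IsPGroup 2 Q → Q ≤ Γ ⊓ Fx c₂.supportᶜ →
      3 * Nat.card Q ≤ Nat.card N₂) : ∃ y ∈ Γ, N₂ = N₁.map (MulAut.conj y).toMonoidHom := by
  have a₁ := card_inf_mul_relIndex (Fx c₁.supportᶜ) N₁
  have a₂ := card_inf_mul_relIndex (Fx c₂.supportᶜ) N₂
  rw [inf_comm, i₁] at a₁
  rw [inf_comm, i₂] at a₂
  have s₂ : IsSylowOf 2 (N₂ ⊓ Fx c₂.supportᶜ) (Γ ⊓ Fx c₂.supportᶜ) :=
    isSylowOf_of_maximal p₂ (inf_le_inf_right _ n₂) fun Q a b c =>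
      (eq_of_le_of_card_ge c (by have := hmax Q a b; omega)).ge
  have s₁ : IsSylowOf 2 ((N₁ ⊓ Fx c₁.supportᶜ).map (MulAut.conj x).toMonoidHom)
      (Γ ⊓ Fx c₂.supportᶜ) := by
    refine s₂.of_card_le (p₁.map _) ?_ ?_
    · rintro _ ⟨z, ⟨hz, hz'⟩, rfl⟩
      refine ⟨Γ.mul_mem (Γ.mul_mem hx (n₁ hz)) (Γ.inv_mem hx), mem_Fx_compl.2 fun a ha => ?_⟩
      rw [← e, support_conj] at ha
      obtain ⟨b, hb, rfl⟩ := Finset.mem_map.1 ha
      simp [mem_Fx_compl.1 hz' b hb]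
    · rw [card_map_of_injective (MulAut.conj x).injective]; omega
  obtain ⟨k, ⟨hk, hk'⟩, ek⟩ := s₁.exists_conj_eq s₂
  refine ⟨k * x, mul_mem hk hx, ?_⟩
  have ck : k * c₂ * k⁻¹ = c₂ := by
    rw [mul_inv_eq_iff_eq_mul]
    refine (Disjoint.commute (disjoint_iff_disjoint_support.2 ?_)).eq
    exact Finset.disjoint_left.2 fun a ha hb => mem_support.1 ha (mem_Fx_compl.1 hk' a hb)
  rw [eq_sup_of_three h₁ t₁ i₁, eq_sup_of_three h₂ t₂ i₂, Subgroup.map_sup, MonoidHom.map_zpowers]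
  congr 1
  · rw [← ek, map_mul]
    exact map_map _ (MulAut.conj k).toMonoidHom (MulAut.conj x).toMonoidHom
  · congr 1
    rw [← ck, ← e]; simp [mul_assoc]

/-- The embedding of `Sym(n - 3) × C₃` in `Sym(n)`. -/
theorem exists_emb (n : ℕ) (h : 3 ≤ n) :
    ∃ f : Perm (Fin (n - 3)) × Multiplicative (ZMod 3) →* Perm (Fin n), Function.Injective f ∧
      ∀ x, sign (f x) = sign x.1 := by
  obtain ⟨e⟩ : Nonempty (Fin (n - 3) ⊕ Multiplicative (ZMod 3) ≃ Fin n) :=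
    ⟨Fintype.equivOfCardEq (by simp; omega)⟩
  refine ⟨e.permCongrHom.toMonoidHom.comp ((sumCongrHom _ _).comp ((MonoidHom.id _).prodMap
    (MulAction.toPermHom (Multiplicative (ZMod 3)) (Multiplicative (ZMod 3))))),
    e.permCongrHom.injective.comp (sumCongrHom_injective.comp
      (Function.injective_id.prodMap MulAction.toPerm_injective)), fun x => ?_⟩
  have : ∀ y : Multiplicative (ZMod 3), sign (MulAction.toPerm y : Perm (Multiplicative (ZMod 3))) = 1 := by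
    decide
  simp [permCongrHom, this]

theorem exists_prod {G H : Type*} [Group G] [Group H] [Finite G] (P : Subgroup G) (hP : IsPGroup 2 P)
    (f : G × Multiplicative (ZMod 3) →* H) (hf : Function.Injective f) :
    ∃ M : Subgroup H, Group.IsNilpotent M ∧ Nat.card M = 3 * Nat.card P ∧
      Nonempty (M ≃* (P × Multiplicative (ZMod 3))) := by
  have := hP.isNilpotent
  let φ : P × Multiplicative (ZMod 3) →* H := f.comp (P.subtype.prodMap (MonoidHom.id _))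
  have hφ : Function.Injective φ := hf.comp (P.subtype_injective.prodMap Function.injective_id)
  have e := MonoidHom.ofInjective hφ
  exact ⟨φ.range, Group.nilpotent_of_mulEquiv e, by
    rw [← Nat.card_congr e.toEquiv, Nat.card_prod, mul_comm]; simp, ⟨e.symm⟩⟩

theorem card_sylow_sym (n : ℕ) (P : Sylow 2 (Perm (Fin n))) : Nat.card P = g n := by
  rw [P.card_eq_multiplicity, Nat.card_perm, Nat.card_fin, g]

theorem card_sylow_alt {n : ℕ} (h : 2 ≤ n) (P : Sylow 2 (alternatingGroup (Fin n))) :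
    2 * Nat.card P = g n := by
  have : Nontrivial (Fin n) := Fin.nontrivial_iff_two_le.2 h
  have e := two_mul_nat_card_alternatingGroup (α := Fin n)
  rw [Nat.card_perm, Nat.card_fin] at e
  rw [P.card_eq_multiplicity, g, ← e, Nat.factorization_mul two_ne_zero Nat.card_pos.ne',
    Finsupp.add_apply, Nat.prime_two.factorization_self, pow_add, pow_one]

theorem card_three {N : Subgroup (Perm Ω)} {c : Perm Ω} (h1 : c.IsThreeCycle)
    (h2 : IsPGroup 2 (N ⊓ Fx c.supportᶜ : Subgroup _)) (h3 : (Fx c.supportᶜ).relIndex N = 3) :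
    3 ≤ Fintype.card Ω ∧ Nat.card N ≤ 3 * g (Fintype.card Ω - 3) ∧ (N ≤ alternatingGroup Ω →
      5 ≤ Fintype.card Ω → 2 * Nat.card N ≤ 3 * g (Fintype.card Ω - 3)) := by
  have a := two_le_g (res_pgroup _ h2)
  have b := card_eq_res c.supportᶜ N
  have d := card_sub c.support
  rw [h1.card_support] at d
  rw [h3] at b
  rw [← d, Nat.add_sub_cancel]
  refine ⟨by omega, by omega, fun hA h5 => ?_⟩
  have := two_le_g_alt (res_pgroup _ h2) (res_alt _ hA) (by omega)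
  omega

theorem card_le_of_Fx {c : Perm Ω} (h1 : c.IsThreeCycle) {Q : Subgroup (Perm Ω)} (hQ : IsPGroup 2 Q)
    (h : Q ≤ Fx c.supportᶜ) : Nat.card Q ≤ g (Fintype.card Ω - 3) ∧ (Q ≤ alternatingGroup Ω →
      5 ≤ Fintype.card Ω → 2 * Nat.card Q ≤ g (Fintype.card Ω - 3)) := by
  have h2 : IsPGroup 2 (Q ⊓ Fx c.supportᶜ : Subgroup _) := hQ.to_inf_left
  have a := two_le_g (res_pgroup _ h2)
  have b := card_res c.supportᶜ Q
  have d := card_sub c.support
  rw [h1.card_support] at d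
  rw [inf_eq_left.2 h] at b
  rw [← d, Nat.add_sub_cancel, ← b]
  exact ⟨a, fun hA h5 => two_le_g_alt (res_pgroup _ h2) (res_alt _ hA) (by omega)⟩

end Cfsg.Agent.SymNil
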